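-- helper27: package [FIXLET] of the team project LSF (S5286).
import Cfsg.Agent.Lib.Helper67.LSF.Defs

set_option autoImplicit false

namespace Cfsg.Agent.Lib.Helper27.LSF

open Cfsg.Agent.Lib.Helper67.LSF

universe u

theorem map_eq_self_mem {β : Type u} (f : β → β) :
    ∀ (L : List β), L.map f = L → ∀ b ∈ L, f b = b
  | [], _, b, hb => by simp at hb
  | a :: L, h, b, hb => by
    rw [List.map_cons, List.cons.injEq] at h
    rcases List.mem_cons.mp hb with rfl | hb'
    · exact h.1
    · exact map_eq_self_mem f L h.2 b hb'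

/-- [FIXLET] a basis permutation fixing a reduced word fixes its letters. -/
theorem pkgFixLet : PkgFixLet.{u} := by
  intro X π L hL h ℓ hℓ
  classical
  have h1 : FreeGroup.freeGroupCongr π (FreeGroup.mk L) =
      FreeGroup.mk (L.map fun p => (π p.1, p.2)) := by
    simp [FreeGroup.freeGroupCongr]
  rw [h1] at h
  have hred : FreeGroup.IsReduced (L.map fun p : X × Bool => (π p.1, p.2)) := by
    unfold FreeGroup.IsReduced at hL ⊢
    rw [List.isChain_map]
    exact hL.imp (fun a b hab h1 => hab (π.injective h1))
  have h2 := congrArg FreeGroup.toWord h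
  rw [FreeGroup.toWord_mk, FreeGroup.toWord_mk, hred.reduce_eq, hL.reduce_eq] at h2
  have h3 := map_eq_self_mem _ L h2 ℓ hℓ
  exact congrArg Prod.fst h3

end Cfsg.Agent.Lib.Helper27.LSF
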